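import Mathlib
import Cfsg.Agent.Lib.Helper14.Spec.Defs
import Cfsg.Agent.S2904

/-!
# SPEC (S2362) package [ZSIG] (helper25): a primitive prime divisor of `q ^ (2 d) - 1`
-/

set_option autoImplicit false

namespace Cfsg.Agent.Lib.Helper25.Spec

open Cfsg.Agent.Lib.Helper14.Spec

theorem natCast_pow_eq_one_iff (q r k : ℕ) (hq : 1 ≤ q) :
    ((q : ℕ) : ZMod r) ^ k = 1 ↔ r ∣ q ^ k - 1 := by
  rw [← ZMod.natCast_eq_zero_iff, Nat.cast_sub (Nat.one_le_pow _ _ hq), Nat.cast_pow,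
    Nat.cast_one, sub_eq_zero]

/-- package [ZSIG] -/
theorem pkgZsig : PkgZsig := by
  intro q d hq hd
  obtain ⟨r, hr, hrd, hprim⟩ := Cfsg.Agent.S2904.result q (2 * d) (by omega) (by omega)
    (by omega) (by omega)
  have hq1 : 1 ≤ q := by omega
  have hqd1 : 1 ≤ q ^ d := Nat.one_le_pow _ _ hq1
  have hfac : q ^ (2 * d) - 1 = (q ^ d - 1) * (q ^ d + 1) := by
    obtain ⟨a, ha⟩ : ∃ a, q ^ d = a + 1 := ⟨q ^ d - 1, by omega⟩
    rw [mul_comm 2 d, pow_mul, ha]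
    have h1 : (a + 1) ^ 2 = a * (a + 1 + 1) + 1 := by ring
    rw [h1, Nat.add_sub_cancel, Nat.add_sub_cancel]
  have hnq : ¬ r ∣ q := by
    intro h
    have h1 : r ∣ q ^ (2 * d) := Dvd.dvd.trans h (dvd_pow_self q (by omega))
    have h2 : 1 ≤ q ^ (2 * d) := Nat.one_le_pow _ _ hq1
    have h3 : r ∣ q ^ (2 * d) - (q ^ (2 * d) - 1) := Nat.dvd_sub h1 hrd
    have h4 : q ^ (2 * d) - (q ^ (2 * d) - 1) = 1 := by omega
    rw [h4] at h3
    exact hr.one_lt.ne' (Nat.eq_one_of_dvd_one h3)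
  have hr2 : r ≠ 2 := by
    rintro rfl
    apply hprim 1 (by omega) (by omega)
    rw [pow_one]
    have hodd : ¬ 2 ∣ q := hnq
    omega
  have hrd1 : r ∣ q ^ d + 1 := by
    rw [hfac] at hrd
    rcases (Nat.Prime.dvd_mul hr).mp hrd with h | h
    · exact absurd h (hprim d (by omega) (by omega))
    · exact h
  refine ⟨r, hr, hr2, hnq, hrd1, ?_⟩
  rw [orderOf_eq_iff (by omega)]
  refine ⟨(natCast_pow_eq_one_iff q r (2 * d) hq1).mpr hrd, ?_⟩
  intro m hm hm0 h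
  exact hprim m hm0 hm ((natCast_pow_eq_one_iff q r m hq1).mp h)

end Cfsg.Agent.Lib.Helper25.Spec
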